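import Cfsg.Agent.H42.K547.EvenDefs
import Cfsg.Agent.H35.ExcIdxTw
import Cfsg.Agent.H601.OddDeg.Rows
import Cfsg.Agent.CTwoTab.Base

/-!
# S4547, groups of Lie type of characteristic two: the assembly (helper42)

* `sigma_pow` : the permutation of the nodes has 2-power order;
* `g_of_edge` : the rows in which an edge of type `A₂` is fixed;
* `g_two`, `ext_two` : all groups of Lie type of characteristic two, from `EdgeE`, `EvenSmall`, `D3Even`.
-/

set_option autoImplicit false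
set_option linter.unusedSectionVars false

open Cfsg

namespace Cfsg.Agent.H42.K547.Even

open CoxeterSystem Cfsg.Agent.ChevalleyStructure.CoxeterGeom Cfsg.Agent.Tits.Roots Cfsg.Agent.Tits.Core
  Cfsg.Agent.Nodes.BNOf Cfsg.Agent.Nodes.Bruhat Cfsg.Agent.Nodes.StabComb Cfsg.Agent.H821.K547 Cfsg.Agent.H307.QE
  Cfsg.Agent.H671.K547 Cfsg.Agent.Omega.ML.Ex.Typ Cfsg.Agent.H246.Dl Cfsg.Agent.Nodes.Reps
  Cfsg.Agent.Nodes.OppDec Cfsg.Agent.Nodes.LeviDec Cfsg.Agent.H53.HC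
open Cfsg.Agent.LieRecognition.BNCox (cA cA_apply)
open Cfsg.Agent.H601.OddDeg.Rows (path_one adj_A)

universe u v

section general

variable {S : Type u} [Group S]

theorem isInn_conj {g : S} {τ : MulAut S} (h : IsInn (MulAut.conj g * τ)) : IsInn τ := by
  obtain ⟨s, hs⟩ := h
  refine ⟨g⁻¹ * s, fun x => ?_⟩
  have h1 := hs x
  rw [MulAut.mul_apply, MulAut.conj_apply] at h1
  calc τ x = g⁻¹ * (g * τ x * g⁻¹) * g := by group
    _ = g⁻¹ * (s * x * s⁻¹) * g := by rw [h1]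
    _ = _ := by group

/-- transport of `GE` -/
theorem GE.congr {S : Type u} {T : Type v} [Group S] [Group T] [Finite S] (e : S ≃* T) (h : GE T) : GE S := by
  intro τ h2 ho
  rcases h _ (twoPow_congr e h2) (fun hi => ho ((isInn_congr_iff e).1 hi)) with h1 | h1
  · exact Or.inl (gInv3_congr e h1)
  · exact Or.inr (extRow_congr e h1)

theorem Nice.of_equiv {S : Type u} {T : Type v} [Group S] [Finite S] [IsSimpleGroup S] [Group T] (e : S ≃* T)
    (h : IsLieTypeChar 2 S) : Nice T :=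
  have : Nontrivial T := e.symm.toEquiv.nontrivial
  ⟨IsSimpleGroup.isSimpleGroup_of_surjective e.toMonoidHom e.surjective, CTwoTab.isLieTypeChar_congr e h,
    (H742.TwoC.twoC_charTwo h).congr e⟩

theorem ExtAll.ge {S : Type u} [Group S] (h : ExtAll S) : GE S := fun τ h2 ho => Or.inr (h τ h2 ho)

theorem GE.of_gInv3 {S : Type u} [Group S] (h : ∀ τ : MulAut S, TwoPow τ → ¬ IsInn τ → GInv3 τ) : GE S :=
  fun τ h2 ho => Or.inl (h τ h2 ho)

end general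

section sigma

variable {I W : Type*} {Y : Type u} [Fintype I] [DecidableEq I] [Group W] [Group Y] {M : CoxeterMatrix I}
  {cs : CoxeterSystem M W} {A : I → I → ℤ} {h : IsCartan M A} {T : Subgroup Y} {n : I → Y}
  {X : (I → ℤ) → Subgroup Y} {R : RGD cs h 2 T n X} {β : MulAut Y} {σ : Equiv.Perm I}

theorem map_PJ_pow (hN : Nrm R β σ) (m : ℕ) (K : Set I) :
    (PJ cs h T X K).map (β ^ m).toMonoidHom = PJ cs h T X ((σ ^ m : Equiv.Perm I) '' K) := by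
  induction m generalizing K with
  | zero =>
    rw [pow_zero, pow_zero]
    have e1 : ((1 : MulAut Y).toMonoidHom : Y →* Y) = MonoidHom.id Y := rfl
    have e2 : ((1 : Equiv.Perm I) : I → I) = id := rfl
    rw [e1, Subgroup.map_id, e2, Set.image_id]
  | succ m ih =>
    have e1 : ((β ^ (m + 1) : MulAut Y).toMonoidHom : Y →* Y) = (β ^ m : MulAut Y).toMonoidHom.comp β.toMonoidHom := by
      rw [pow_succ]
      rfl
    rw [e1, ← Subgroup.map_map, hN.map_PJ, ih, pow_succ, ← Set.image_comp]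
    rfl

/-- the permutation of the nodes has 2-power order -/
theorem sigma_pow [Finite W] (hN : Nrm R β σ) : ∃ k : ℕ, σ ^ 2 ^ k = 1 := by
  obtain ⟨k, hk⟩ := hN.pow
  refine ⟨k, ?_⟩
  ext i
  have h1 := map_PJ_pow hN (2 ^ k) {i}
  rw [hk, Set.image_singleton] at h1
  have e1 : ((1 : MulAut Y).toMonoidHom : Y →* Y) = MonoidHom.id Y := rfl
  rw [e1, Subgroup.map_id] at h1
  have h2 : n i ∈ PJ cs h T X {i} := (n_mem_PJ_iff R {i} i).2 rfl
  rw [h1, n_mem_PJ_iff R] at h2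
  exact h2.symm

theorem card_X (hN : Nrm R β σ) (i : I) : Nat.card (X (sr (σ i))) = Nat.card (X (sr i)) := by
  symm
  exact Nat.card_congr
    { toFun := fun x => ⟨β x.1, (hN.diag.pos i x.1).2 x.2⟩
      invFun := fun y => ⟨β⁻¹ y.1, by
        rw [← hN.diag.pos i, MulAut.apply_inv_self]
        exact y.2⟩
      left_inv := fun x => Subtype.ext (MulAut.inv_apply_self _ _ _)
      right_inv := fun y => Subtype.ext (MulAut.apply_inv_self _ _ _) }

end sigma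

/-! ### the rows with a fixed edge -/

section edge

variable {S : Type u} [Group S] [Finite S] [IsSimpleGroup S]

/-- **the rows with a fixed edge** -/
theorem g_of_edge (hE : EdgeE.{u}) {l : ℕ} {M : CoxeterMatrix (Fin l)} (hS : HasRGDT 2 M S)
    (hT : H601.OddDeg.TwoC S)
    (hedge : ∀ σ : Equiv.Perm (Fin l), (∀ i j, M (σ i) (σ j) = M i j) → (∃ k : ℕ, σ ^ 2 ^ k = 1) →
      ∃ i j, M i j = 3 ∧ σ i = i ∧ σ j = j) : GE S := by
  obtain ⟨A, h, T, n, X, hW, R, hX⟩ := hS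
  have : Finite M.Group := hW
  have hG : GG M.toCoxeterSystem h T X = ⊤ := H967.K4.gg_of_g1 hX
  intro τ h2 ho
  obtain ⟨g, σ, hN⟩ := exists_nrm R hG h2
  obtain ⟨i, j, hij, hi, hj⟩ := hedge σ hN.sym (sigma_pow hN)
  exact Or.inl (gInv3_conj g (hE R hG hT hN hij hi hj))

/-! ### the diagrams -/

omit [Finite S] [IsSimpleGroup S] [Group S] in
theorem edge_B {n : ℕ} (hn : 3 ≤ n) (σ : Equiv.Perm (Fin n))
    (hσ : ∀ i j, CoxeterMatrix.B n (σ i) (σ j) = CoxeterMatrix.B n i j) :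
    ∃ i j, CoxeterMatrix.B n i j = 3 ∧ σ i = i ∧ σ j = j := by
  have h1 : σ = 1 := by
    have hB : ∀ a b : Fin n, H601.OddDeg.Rows.Adj a b ↔ (a : ℕ) ≠ b ∧ CoxeterMatrix.B n a b ≠ 2 := by
      intro a b
      rw [Ne, Ne, H612.Sym.B_eq_two]
      unfold H601.OddDeg.Rows.Adj
      omega
    refine path_one (fun a b hab => ?_) fun i hi => ?_
    · rw [hB] at hab ⊢
      refine ⟨fun h => hab.1 (congrArg Fin.val (σ.injective (Fin.ext h))), ?_⟩
      rw [hσ]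
      exact hab.2
    · by_contra hcon
      have h1 : σ i ∈ {i : Fin n | (i : ℕ) ≠ 0} := hcon
      rw [← H612.Sym.sym_B hn σ hσ] at h1
      obtain ⟨j, hj, hji⟩ := h1
      rw [σ.injective hji] at hj
      exact hj hi
  subst h1
  refine ⟨⟨0, by omega⟩, ⟨1, by omega⟩, ?_, rfl, rfl⟩
  rw [H612.Sym.B_eq_three]
  refine ⟨Or.inl rfl, ?_⟩
  rintro (⟨h1, -⟩ | ⟨h1, h2⟩)
  · have h3 : 0 = n - 1 := h1
    omega
  · have h3 : 1 = n - 1 := h1
    omega

/-- the matrix `D₄` -/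
def m4 (i j : Fin 4) : ℕ := if i = j then 1 else if i = 1 ∨ j = 1 then 3 else 2

theorem m4_eq : ∀ i j : Fin 4, Nodes.TypeD.M 2 i j = m4 i j := by
  intro i j
  rw [H612.Sym.D_apply]
  revert i j
  decide

theorem m4_edge : ∀ σ : Equiv.Perm (Fin 4), (∀ i j, m4 (σ i) (σ j) = m4 i j) → σ ^ 8 = 1 →
    ∃ i j, m4 i j = 3 ∧ σ i = i ∧ σ j = j := by
  decide +kernel

theorem edge_D4 (σ : Equiv.Perm (Fin 4)) (hσ : ∀ i j : Fin 4, Nodes.TypeD.M 2 (σ i) (σ j) = Nodes.TypeD.M 2 i j)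
    (hk : ∃ k : ℕ, σ ^ 2 ^ k = 1) : ∃ i j : Fin 4, Nodes.TypeD.M 2 i j = 3 ∧ σ i = i ∧ σ j = j := by
  have h8 : σ ^ 8 = 1 := by
    obtain ⟨k, hk⟩ := hk
    have h1 : orderOf σ ∣ 2 ^ k := orderOf_dvd_of_pow_eq_one hk
    have h2 : orderOf σ ∣ 24 := by
      have := orderOf_dvd_card (x := σ)
      rwa [Fintype.card_perm, Fintype.card_fin] at this
    obtain ⟨m, -, hm⟩ := (Nat.dvd_prime_pow Nat.prime_two).1 h1
    apply orderOf_dvd_iff_pow_eq_one.1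
    rw [hm] at h2 ⊢
    have h3 : m ≤ 3 := by
      by_contra h4
      have h5 : 2 ^ 4 ∣ 24 := (pow_dvd_pow 2 (by omega : 4 ≤ m)).trans h2
      norm_num at h5
    exact (pow_dvd_pow 2 h3).trans (by norm_num)
  obtain ⟨i, j, h1, h2⟩ := m4_edge σ (fun i j => by rw [← m4_eq, ← m4_eq, hσ]) h8
  exact ⟨i, j, by rw [m4_eq, h1], h2⟩

theorem edge_D {n : ℕ} (hn : 3 ≤ n) (σ : Equiv.Perm (Fin (n + 2)))
    (hσ : ∀ i j, Nodes.TypeD.M n (σ i) (σ j) = Nodes.TypeD.M n i j) :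
    ∃ i j, Nodes.TypeD.M n i j = 3 ∧ σ i = i ∧ σ j = j := by
  have h0 : ∀ i : Fin (n + 2), (i : ℕ) = 0 → σ i = i := by
    intro i hi
    by_contra hne
    have h1 : σ i ∈ {i : Fin (n + 2) | (i : ℕ) ≠ 0} := fun h => hne (Fin.ext (h.trans hi.symm))
    rw [← H612.Sym.sym_D hn σ hσ] at h1
    obtain ⟨j, hj, hji⟩ := h1
    rw [σ.injective hji] at hj
    exact hj hi
  have e0 := h0 ⟨0, by omega⟩ rfl
  have e3 : Nodes.TypeD.M n ⟨0, by omega⟩ ⟨1, by omega⟩ = 3 := by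
    rw [H612.Sym.D_eq_three]
    left
    left
    exact ⟨show 1 < n + 1 by omega, rfl⟩
  refine ⟨⟨0, by omega⟩, ⟨1, by omega⟩, e3, e0, ?_⟩
  have h1 := hσ ⟨0, by omega⟩ ⟨1, by omega⟩
  rw [e0, e3, H612.Sym.D_eq_three] at h1
  unfold H612.Sym.AdjD at h1
  apply Fin.ext
  simp only at h1 ⊢
  omega

theorem edge_E6 (σ : Equiv.Perm (Fin 6)) (hσ : ∀ i j, CoxeterMatrix.E₆ (σ i) (σ j) = CoxeterMatrix.E₆ i j) :
    ∃ i j, CoxeterMatrix.E₆ i j = 3 ∧ σ i = i ∧ σ j = j := by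
  have h1 : ∀ i, ![1, 1, 2, 3, 2, 1] (σ i) = ![1, 1, 2, 3, 2, 1] i :=
    H681.GmnTypes.inv_step hσ (g := fun _ => 1) (fun _ => rfl) (by decide)
  have h2 : ∀ i, ![2, 3, 4, 5, 4, 2] (σ i) = ![2, 3, 4, 5, 4, 2] i :=
    H681.GmnTypes.inv_step hσ h1 (by decide)
  have h3 : ∀ a : Fin 6, (![2, 3, 4, 5, 4, 2] a = 3 → a = 1) ∧ (![2, 3, 4, 5, 4, 2] a = 5 → a = 3) := by
    decide
  exact ⟨1, 3, by decide, (h3 _).1 (h2 1), (h3 _).2 (h2 3)⟩

theorem edge_E7 (σ : Equiv.Perm (Fin 7)) (hσ : ∀ i j, CoxeterMatrix.E₇ (σ i) (σ j) = CoxeterMatrix.E₇ i j) :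
    ∃ i j, CoxeterMatrix.E₇ i j = 3 ∧ σ i = i ∧ σ j = j := by
  have h1 : ∀ i, ![1, 1, 2, 3, 2, 2, 1] (σ i) = ![1, 1, 2, 3, 2, 2, 1] i :=
    H681.GmnTypes.inv_step hσ (g := fun _ => 1) (fun _ => rfl) (by decide)
  have h2 : ∀ i, ![2, 3, 4, 5, 5, 3, 2] (σ i) = ![2, 3, 4, 5, 5, 3, 2] i :=
    H681.GmnTypes.inv_step hσ h1 (by decide)
  have h3 : ∀ i, ![4, 5, 7, 12, 8, 7, 3] (σ i) = ![4, 5, 7, 12, 8, 7, 3] i :=
    H681.GmnTypes.inv_step hσ h2 (by decide)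
  have h4 : ∀ a b : Fin 7, ![2, 3, 4, 5, 5, 3, 2] a = ![2, 3, 4, 5, 5, 3, 2] b →
    ![4, 5, 7, 12, 8, 7, 3] a = ![4, 5, 7, 12, 8, 7, 3] b → a = b := by decide
  have h5 : ∀ i, σ i = i := fun i => h4 _ _ (h2 i) (h3 i)
  exact ⟨0, 2, by decide, h5 _, h5 _⟩

theorem edge_E8 (σ : Equiv.Perm (Fin 8)) (hσ : ∀ i j, CoxeterMatrix.E₈ (σ i) (σ j) = CoxeterMatrix.E₈ i j) :
    ∃ i j, CoxeterMatrix.E₈ i j = 3 ∧ σ i = i ∧ σ j = j := by
  have h1 : ∀ i, ![1, 1, 2, 3, 2, 2, 2, 1] (σ i) = ![1, 1, 2, 3, 2, 2, 2, 1] i :=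
    H681.GmnTypes.inv_step hσ (g := fun _ => 1) (fun _ => rfl) (by decide)
  have h2 : ∀ i, ![2, 3, 4, 5, 5, 4, 3, 2] (σ i) = ![2, 3, 4, 5, 5, 4, 3, 2] i :=
    H681.GmnTypes.inv_step hσ h1 (by decide)
  have h3 : ∀ i, ![4, 5, 7, 12, 9, 8, 6, 3] (σ i) = ![4, 5, 7, 12, 9, 8, 6, 3] i :=
    H681.GmnTypes.inv_step hσ h2 (by decide)
  have h4 : ∀ a b : Fin 8, ![2, 3, 4, 5, 5, 4, 3, 2] a = ![2, 3, 4, 5, 5, 4, 3, 2] b →
    ![4, 5, 7, 12, 9, 8, 6, 3] a = ![4, 5, 7, 12, 9, 8, 6, 3] b → a = b := by decide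
  have h5 : ∀ i, σ i = i := fun i => h4 _ _ (h2 i) (h3 i)
  exact ⟨0, 2, by decide, h5 _, h5 _⟩

/-- symmetries of `F₄` -/
theorem sym_F4 (σ : Equiv.Perm (Fin 4)) (hσ : ∀ i j, CoxeterMatrix.F₄ (σ i) (σ j) = CoxeterMatrix.F₄ i j) (i : Fin 4) :
    σ i = i ∨ σ i = Fin.rev i := by
  have h1 : ∀ i, ![1, 2, 2, 1] (σ i) = ![1, 2, 2, 1] i :=
    H681.GmnTypes.inv_step hσ (g := fun _ => 1) (fun _ => rfl) (by decide)
  have h2 : ∀ a b : Fin 4, ![1, 2, 2, 1] a = ![1, 2, 2, 1] b → a = b ∨ a = Fin.rev b := by decide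
  exact h2 _ _ (h1 i)

theorem F4_eq_one (σ : Equiv.Perm (Fin 4)) (hσ : ∀ i j, CoxeterMatrix.F₄ (σ i) (σ j) = CoxeterMatrix.F₄ i j)
    (h0 : σ 0 = 0) : σ = 1 := by
  have h3 : ∀ i, σ i = i := by
    intro i
    have h1 := sym_F4 σ hσ i
    have h2 := hσ 0 i
    rw [h0] at h2
    rcases h1 with h1 | h1
    · exact h1
    · rw [h1] at h2 ⊢
      have h4 : ∀ i : Fin 4, CoxeterMatrix.F₄ 0 (Fin.rev i) = CoxeterMatrix.F₄ 0 i → i = 0 ∨ i = 3 ∨ Fin.rev i = i := by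
        decide
      rcases h4 i h2 with rfl | rfl | h5
      · rw [h0] at h1
        exact absurd h1 (by decide)
      · have h6 := hσ 0 3
        have h7 : σ 3 = σ 0 := by rw [h1, h0]; rfl
        exact absurd (σ.injective h7) (by decide)
      · exact h5
  exact Equiv.ext h3

end edge

/-! ### the rows with a swap -/

section swap

theorem card_even {F : Type} [Field F] [Fintype F] [CharP F 2] (h3 : 3 ≤ Fintype.card F) : 4 ≤ Fintype.card F := by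
  obtain ⟨k, hk, hc⟩ := FiniteField.card F 2
  rw [hc] at h3 ⊢
  rcases Nat.lt_or_ge (k : ℕ) 2 with h | h
  · have h1 : (k : ℕ) = 1 := by have := k.pos; omega
    rw [h1] at h3
    norm_num at h3
  · calc 4 = 2 ^ 2 := by norm_num
      _ ≤ 2 ^ (k : ℕ) := Nat.pow_le_pow_right (by norm_num) h

variable {F : Type} [Field F] [Fintype F] [CharP F 2]

/-- `PSL_(n+1)(F)`, `n ≥ 2` -/
theorem g_psl (hE : EdgeE.{0}) (E : EvenSmall) {n : ℕ} (hn : 2 ≤ n)
    (hF : n ≤ 3 → 4 ≤ Fintype.card F)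
    (hT : H601.OddDeg.TwoC (Matrix.ProjectiveSpecialLinearGroup (Fin (n + 1)) F)) :
    GE (Matrix.ProjectiveSpecialLinearGroup (Fin (n + 1)) F) := by
  have : Finite (Matrix.ProjectiveSpecialLinearGroup (Fin (n + 1)) F) := Quotient.finite _
  have := finite_A n
  intro τ h2 ho
  obtain ⟨g, σ, hN⟩ := exists_nrm (rA n F) (gA n F) h2
  left
  apply gInv3_conj g
  by_cases h1 : σ = 1
  · have h01 : cA n (⟨0, by omega⟩ : Fin n) ⟨1, by omega⟩ = 3 := by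
      rw [adj_A]
      exact Or.inl rfl
    exact hE (rA n F) (gA n F) hT hN h01 (by rw [h1]; rfl) (by rw [h1]; rfl)
  · exact E.psl_swap hn hF hN h1

/-- `F₄(F)` -/
theorem g_F4 (hE : EdgeE.{0}) (E : EvenSmall) (hT : H601.OddDeg.TwoC ↥(Lie.chevF4.group F)) :
    GE ↥(Lie.chevF4.group F) := by
  have := finite_F4
  intro τ h2 ho
  obtain ⟨g, σ, hN⟩ := exists_nrm (rF4 F) (gF4 F) h2
  left
  apply gInv3_conj g
  by_cases h1 : σ = 1
  · exact hE (rF4 F) (gF4 F) hT hN (i := 0) (j := 1) (by decide) (by rw [h1]; rfl) (by rw [h1]; rfl)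
  · exact E.f4_swap hN h1

end swap

section twE6

/-- `²E₆(q)` -/
theorem g_twE6 (hE : EdgeE.{0}) {K : Type} [Field K] [Fintype K] [CharP K 2] {q : ℕ}
    (hq : IsPrimePow q) (hK : Fintype.card K = q ^ 2)
    (hT : H601.OddDeg.TwoC ↥(Lie.twistedE6 K q)) : GE ↥(Lie.twistedE6 K q) := by
  have : Fact (Nat.Prime 2) := ⟨Nat.prime_two⟩
  obtain ⟨φ, hφ, hqq⟩ := ChevalleyStructure.TwE6Basic.exists_frob hq hK
  have hfin : Finite CoxeterMatrix.F₄.Group := Nodes.RGDFold.finite_W (hp := Nodes.RGDTwE6.hp)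
    CoxeterMatrix.F₄.toCoxeterSystem Nodes.RGDTwE6.isCartan Nodes.RGDTwE6.foldData
  have R := Nodes.RGDTwE6.rgd CoxeterMatrix.F₄.toCoxeterSystem hφ hqq 2
  have hG : GG CoxeterMatrix.F₄.toCoxeterSystem Nodes.RGDTwE6.isCartan (Nodes.RGDTwE6.T K q)
      (Nodes.RGDTwE6.X φ q) = ⊤ := H967.K4.gg_of_g1 (Nodes.RGDTwE6.G1_eq_top _ hφ hqq)
  intro τ h2 ho
  obtain ⟨g, σ, hN⟩ := exists_nrm R hG h2
  have hsym := hN.sym
  have h0 : σ 0 = 0 := by
    rcases sym_F4 σ hsym 0 with h1 | h1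
    · exact h1
    · exfalso
      have h3 := card_X hN 0
      rw [h1, H35.ExcIdx.card_X_tw hφ hqq hq.one_lt hK, H35.ExcIdx.card_X_tw hφ hqq hq.one_lt hK] at h3
      have h4 : q ^ 2 = q := h3
      have h5 := hq.one_lt
      nlinarith
  have h1 := F4_eq_one σ hsym h0
  exact Or.inl (gInv3_conj g (hE R hG hT hN (i := 0) (j := 1) (by decide) (by rw [h1]; rfl) (by rw [h1]; rfl)))

end twE6

section final

variable {S : Type u} [Group S] [Finite S] [IsSimpleGroup S]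

/-- **The `GInv3` halves of the ext rows.** -/
theorem g_two (hE : EdgeE.{u}) (hE0 : EdgeE.{0}) (E : EvenSmall) (hS : IsLieTypeChar 2 S) : GE S := by
  have hS0 := hS
  have hT := H742.TwoC.twoC_charTwo hS
  have : Fact (Nat.Prime 2) := ⟨Nat.prime_two⟩
  rcases hS with h | h | h | h | h | h | h | h | ⟨-, h⟩ | ⟨-, h⟩ | ⟨h, -⟩
  · obtain ⟨F, _, _, _, n, hn, hn4, ⟨e⟩⟩ := h
    obtain ⟨m, rfl⟩ : ∃ m, n = m + 1 := ⟨n - 1, by omega⟩
    have hT' := hT.congr e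
    rcases (show m = 1 ∨ m = 2 ∨ m = 3 ∨ 4 ≤ m by omega) with rfl | rfl | rfl | h4
    · exact (E.psl2 (hn4 rfl)).congr e
    · rcases Nat.lt_or_ge (Fintype.card F) 3 with h3 | h3
      · have h2 : Fintype.card F = 2 := by
          have := Fintype.one_lt_card (α := F)
          omega
        exact (E.psl32 h2).congr e
      · exact (g_psl hE0 E (n := 2) le_rfl (fun _ => card_even h3) hT').congr e
    · rcases Nat.lt_or_ge (Fintype.card F) 3 with h3 | h3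
      · have h2 : Fintype.card F = 2 := by
          have := Fintype.one_lt_card (α := F)
          omega
        exact (E.psl42 h2).congr e
      · exact (g_psl hE0 E (n := 3) (by norm_num) (fun _ => card_even h3) hT').congr e
    · exact (g_psl hE0 E (n := m) (by omega) (fun h => absurd h (by omega)) hT').congr e
  · obtain ⟨F, _, _, _, m, hm, h3, ⟨e⟩⟩ := h
    rcases (show m = 2 ∨ 3 ≤ m by omega) with rfl | h4
    · exact (E.psp4 (card_even (h3 rfl)) (Nice.of_equiv e hS0)).congr e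
    · exact g_of_edge hE ((typ_PSp (by omega)).of_equiv e.symm) hT fun σ hσ _ => edge_B h4 σ hσ
  · obtain ⟨F, _, _, _, n, q, hF, hn, h32, ⟨e⟩⟩ := h
    have hq2 : 2 ≤ q := by
      have h1 : 1 < Fintype.card F := Fintype.one_lt_card
      rw [hF] at h1
      by_contra hcon
      have : q = 0 ∨ q = 1 := by omega
      rcases this with rfl | rfl <;> norm_num at h1
    rcases (show n = 3 ∨ n = 4 ∨ n = 5 ∨ 6 ≤ n by omega) with rfl | rfl | rfl | h6
    · have hq3 : 3 ≤ q := by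
        rcases (show q = 2 ∨ 3 ≤ q by omega) with rfl | h
        · exact absurd ⟨rfl, rfl⟩ h32
        · exact h
      have hq4 : 4 ≤ q := by
        obtain ⟨k, hk, hc⟩ := FiniteField.card F 2
        rw [hF] at hc
        have h1 : q ∣ 2 ^ (k : ℕ) := by
          rw [← hc]
          exact dvd_pow_self q two_ne_zero
        obtain ⟨j, -, rfl⟩ := (Nat.dvd_prime_pow Nat.prime_two).1 h1
        have h5 : 2 ≤ j := by
          by_contra h6
          have : j = 0 ∨ j = 1 := by omega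
          rcases this with rfl | rfl <;> norm_num at hq3
        calc 4 = 2 ^ 2 := by norm_num
          _ ≤ 2 ^ j := Nat.pow_le_pow_right (by norm_num) h5
      exact (E.psu3 hF hq4 (Nice.of_equiv e hS0)).congr e
    · exact (E.psu4 hF (Nice.of_equiv e hS0)).congr e
    · exact (E.psu5 hF (Nice.of_equiv e hS0)).congr e
    · obtain ⟨m, hm, hR⟩ := typ_PSU (p := 2) hF hn
      exact g_of_edge hE (hR.of_equiv e.symm) hT fun σ hσ _ => edge_B (by omega) σ hσ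
  · obtain ⟨F, _, _, _, m, hm, ho, ⟨e⟩⟩ := h
    exfalso
    have h1 : (2 : ℕ) ∣ Fintype.card F := by
      obtain ⟨k, hk, hk2⟩ := FiniteField.card F 2
      rw [hk2]
      exact dvd_pow_self _ k.ne_zero
    exact (Nat.not_even_iff_odd.2 ho) (even_iff_two_dvd.2 h1)
  · obtain ⟨F, _, _, _, m, hm, ⟨e⟩⟩ := h
    obtain ⟨n, rfl⟩ : ∃ n, m = n + 4 := ⟨m - 4, by omega⟩
    refine g_of_edge hE ((typ_PO_plus (n + 1)).of_equiv e.symm) hT fun σ hσ hk => ?_
    rcases Nat.eq_zero_or_pos n with rfl | hn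
    · exact edge_D4 σ hσ hk
    · exact edge_D (by omega) σ hσ
  · obtain ⟨F, _, _, _, m, a, b, hm, hab, ⟨e⟩⟩ := h
    exact g_of_edge hE ((typ_PO_minus hab (by omega)).of_equiv e.symm) hT fun σ hσ _ => edge_B (by omega) σ hσ
  · obtain ⟨F, _, _, _, h⟩ := h
    rcases h with ⟨h3, ⟨e⟩⟩ | ⟨⟨e⟩⟩ | ⟨⟨e⟩⟩ | ⟨⟨e⟩⟩ | ⟨⟨e⟩⟩
    · exact (E.g2 (card_even h3) (Nice.of_equiv e hS0)).congr e
    · exact (g_F4 hE0 E (hT.congr e)).congr e
    · exact g_of_edge hE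
        ((typ_group (by simp [Nodes.RGDChev.IsType, Nodes.RGDChev.typeList]) F 2).of_equiv e.symm) hT
        fun σ hσ _ => edge_E6 σ hσ
    · exact g_of_edge hE
        ((typ_group (by simp [Nodes.RGDChev.IsType, Nodes.RGDChev.typeList]) F 2).of_equiv e.symm) hT
        fun σ hσ _ => edge_E7 σ hσ
    · exact g_of_edge hE
        ((typ_group (by simp [Nodes.RGDChev.IsType, Nodes.RGDChev.typeList]) F 2).of_equiv e.symm) hT
        fun σ hσ _ => edge_E8 σ hσ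
  · obtain ⟨K, _, _, _, q, hq, ⟨hK, ⟨e⟩⟩ | ⟨hK, ⟨e⟩⟩⟩ := h
    · exact (g_twE6 hE0 hq hK (hT.congr e)).congr e
    · exact (E.d4 hq hK (Nice.of_equiv e hS0)).congr e
  · obtain ⟨K, _, _, m, hm, hK, ⟨e⟩⟩ := h
    exact (E.sz ⟨K, inferInstance, inferInstance, m, hm, hK, ⟨MulEquiv.refl _⟩⟩).congr e
  · obtain ⟨K, _, _, m, hm, hK, ⟨e⟩⟩ := h
    exact (E.ree ⟨K, inferInstance, inferInstance, m, hm, hK, ⟨MulEquiv.refl _⟩⟩).congr e
  · exact absurd h (by decide)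

/-- **The ext rows of the groups of Lie type of characteristic two.** -/
theorem ext_two (hE : EdgeE.{u}) (hE0 : EdgeE.{0}) (E : EvenSmall) (hD : D3Even.{u}) (hS : IsLieTypeChar 2 S) :
    ExtAll S := by
  intro τ h2 ho
  rcases hD hS τ h2 ho with h | h
  · rcases g_two hE hE0 E hS τ h2 ho with h1 | h1
    · exact ⟨fun _ => h, fun _ => h1⟩
    · exact h1
  · exact h

end final

end Cfsg.Agent.H42.K547.Even
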