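import Cfsg.Agent.H307.QE.Defs
import Cfsg.Agent.H671.K547.Congr
import Cfsg.Agent.H967.K4.Lie

/-!
# S4547, groups of Lie type of characteristic two: the interface of the assembly (helper42)

* `ExtAll S` : `ExtRow S τ` for all outer automorphisms of 2-power order; `GE S` : `GInv3 τ` or `ExtRow S τ` for them;
* `EdgeE` : Theorem E (engine of helper307, Lemma C of helper967) for root group data on `Fin l`;
* `D3Even` : the `D3` halves of helper151 together with the special rows of helper967 / helper714;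
* `EvenSmall` : what is needed from the small rows (QE5e … QE14), only the `GInv3` halves. The swap forms (`psl_swap`,
  `f4_swap`) are about the standard root group data `rA n F` of `PSL_(n+1)(F)` and `rF4 F` of `F₄(F)`.
-/

set_option autoImplicit false

open Cfsg

namespace Cfsg.Agent.H42.K547.Even

open CoxeterSystem Cfsg.Agent.ChevalleyStructure.CoxeterGeom Cfsg.Agent.Tits.Roots Cfsg.Agent.Tits.Core
  Cfsg.Agent.Nodes.BNOf Cfsg.Agent.Nodes.Bruhat Cfsg.Agent.H821.K547 Cfsg.Agent.H307.QE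
open Cfsg.Agent.LieRecognition.BNCox (cA)

universe u

/-- `ExtRow` for all outer automorphisms of 2-power order -/
def ExtAll (S : Type u) [Group S] : Prop := ∀ τ : MulAut S, TwoPow τ → ¬ IsInn τ → ExtRow S τ

/-- **Theorem E** -/
def EdgeE : Prop :=
  ∀ {S : Type u} [Group S] [Finite S] {l : ℕ} {M : CoxeterMatrix (Fin l)} [Finite M.Group] {A : Fin l → Fin l → ℤ}
    {h : IsCartan M A} {T : Subgroup S} {n : Fin l → S} {X : (Fin l → ℤ) → Subgroup S}
    (R : RGD M.toCoxeterSystem h 2 T n X), GG M.toCoxeterSystem h T X = ⊤ → H601.OddDeg.TwoC S →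
    ∀ {β : MulAut S} {σ : Equiv.Perm (Fin l)}, Nrm R β σ → ∀ {i j : Fin l}, M i j = 3 → σ i = i → σ j = j → GInv3 β

/-- `GInv3` (or `ExtRow`) for all outer automorphisms of 2-power order -/
def GE (S : Type u) [Group S] : Prop := ∀ τ : MulAut S, TwoPow τ → ¬ IsInn τ → GInv3 τ ∨ ExtRow S τ

/-- simple, of characteristic two -/
structure Nice (S : Type u) [Group S] : Prop where
  simple : IsSimpleGroup S
  lie : IsLieTypeChar 2 S
  twoC : H601.OddDeg.TwoC S

/-- the `D3` halves and the special rows -/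
def D3Even : Prop :=
  ∀ {S : Type u} [Group S] [Finite S] [IsSimpleGroup S], IsLieTypeChar 2 S → ∀ τ : MulAut S, TwoPow τ → ¬ IsInn τ →
    D3 (AutExt τ) ∨ ExtRow S τ

theorem finite_A (n : ℕ) : Finite (cA n).Group :=
  Nodes.RootsA.finite_W (cA n).toCoxeterSystem (Nodes.RootsA.isCartan n)

theorem rA (n : ℕ) (F : Type) [Field F] [Finite F] [CharP F 2] :
    RGD (cA n).toCoxeterSystem (Nodes.RootsA.isCartan n) 2 ((Nodes.RGDTypeA.T (Fin (n + 1)) F).map (Nodes.RGDTypeA.pr n F))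
      (fun i => Nodes.RGDTypeA.pr n F (Nodes.RGDTypeA.ns n F i)) (fun x => (Nodes.RGDTypeA.X F x).map (Nodes.RGDTypeA.pr n F)) :=
  have := finite_A n
  Nodes.RGDTypeA.rgd_psl _ _

theorem gA (n : ℕ) (F : Type) [Field F] [Finite F] [CharP F 2] :
    GG (cA n).toCoxeterSystem (Nodes.RootsA.isCartan n) ((Nodes.RGDTypeA.T (Fin (n + 1)) F).map (Nodes.RGDTypeA.pr n F))
      (fun x => (Nodes.RGDTypeA.X F x).map (Nodes.RGDTypeA.pr n F)) = ⊤ :=
  H967.K4.gg_of_g1 (Nodes.RGDTypeA.G1_psl_eq_top _ _)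

theorem isTypeF4 : Nodes.RGDChev.IsType Lie.chevF4 4 CoxeterMatrix.F₄ := by
  simp [Nodes.RGDChev.IsType, Nodes.RGDChev.typeList]

/-- the standard root group datum of `F₄(F)` -/
theorem rF4 (F : Type) [Field F] [Finite F] [CharP F 2] :
    RGD CoxeterMatrix.F₄.toCoxeterSystem isTypeF4.isCartan 2
      ((Lie.chevF4.diagonalSubgroup F).subgroupOf (Lie.chevF4.group F))
      (fun i => (⟨Nodes.RGDChev.nn isTypeF4 F i, Nodes.RGDChev.nn_mem_group isTypeF4 i⟩ : ↥(Lie.chevF4.group F)))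
      (fun x => (Nodes.RGDChev.XV Lie.chevF4 4 F x).subgroupOf (Lie.chevF4.group F)) :=
  Nodes.RGDChev.rgd (K := F) isTypeF4 CoxeterMatrix.F₄.toCoxeterSystem 2

theorem finite_F4 : Finite CoxeterMatrix.F₄.Group := Nodes.RGDChev.finite_W isTypeF4 CoxeterMatrix.F₄.toCoxeterSystem

theorem gF4 (F : Type) [Field F] [Finite F] [CharP F 2] :
    GG CoxeterMatrix.F₄.toCoxeterSystem isTypeF4.isCartan
      ((Lie.chevF4.diagonalSubgroup F).subgroupOf (Lie.chevF4.group F))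
      (fun x => (Nodes.RGDChev.XV Lie.chevF4 4 F x).subgroupOf (Lie.chevF4.group F)) = ⊤ :=
  H967.K4.gg_of_g1 (Nodes.RGDChev.G1_eq_top isTypeF4 _)

/-- **The small rows.** -/
structure EvenSmall : Prop where
  /-- QE5e -/
  psl2 : ∀ {F : Type} [Field F] [Fintype F] [CharP F 2], 4 ≤ Fintype.card F →
    GE (Matrix.ProjectiveSpecialLinearGroup (Fin 2) F)
  /-- QE7, QE8, QE9: the automorphisms which reverse the diagram, except `PSL₃(2)`, `PSL₄(2)` -/
  psl_swap : ∀ {F : Type} [Field F] [Fintype F] [CharP F 2] {n : ℕ}, 2 ≤ n → (n ≤ 3 → 4 ≤ Fintype.card F) →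
    ∀ {β : MulAut (Matrix.ProjectiveSpecialLinearGroup (Fin (n + 1)) F)} {σ : Equiv.Perm (Fin n)},
      Nrm (rA n F) β σ → σ ≠ 1 → GInv3 β
  /-- `PSL₃(2) ≃ PSL₂(7)` -/
  psl32 : ∀ {F : Type} [Field F] [Fintype F] [CharP F 2], Fintype.card F = 2 →
    GE (Matrix.ProjectiveSpecialLinearGroup (Fin 3) F)
  /-- `PSL₄(2) ≃ A₈` -/
  psl42 : ∀ {F : Type} [Field F] [Fintype F] [CharP F 2], Fintype.card F = 2 →
    GE (Matrix.ProjectiveSpecialLinearGroup (Fin 4) F)
  /-- QE10 -/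
  psp4 : ∀ {F : Type} [Field F] [Fintype F] [CharP F 2], 4 ≤ Fintype.card F → Nice (PSp 2 F) → GE (PSp 2 F)
  /-- QE6 -/
  psu3 : ∀ {F : Type} [Field F] [Fintype F] [CharP F 2] {q : ℕ}, Fintype.card F = q ^ 2 → 4 ≤ q →
    Nice (PSU 3 F q) → GE (PSU 3 F q)
  /-- QE12 -/
  psu4 : ∀ {F : Type} [Field F] [Fintype F] [CharP F 2] {q : ℕ}, Fintype.card F = q ^ 2 → Nice (PSU 4 F q) →
    GE (PSU 4 F q)
  psu5 : ∀ {F : Type} [Field F] [Fintype F] [CharP F 2] {q : ℕ}, Fintype.card F = q ^ 2 → Nice (PSU 5 F q) →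
    GE (PSU 5 F q)
  /-- QE13 -/
  g2 : ∀ {F : Type} [Field F] [Fintype F] [CharP F 2], 4 ≤ Fintype.card F → Nice ↥(Lie.chevG2.group F) →
    GE ↥(Lie.chevG2.group F)
  d4 : ∀ {K : Type} [Field K] [Fintype K] [CharP K 2] {q : ℕ}, IsPrimePow q → Fintype.card K = q ^ 3 →
    Nice ↥(Lie.twistedD4 K q) → GE ↥(Lie.twistedD4 K q)
  /-- QE14 -/
  f4_swap : ∀ {F : Type} [Field F] [Fintype F] [CharP F 2] {β : MulAut ↥(Lie.chevF4.group F)}
    {σ : Equiv.Perm (Fin 4)}, Nrm (rF4 F) β σ → σ ≠ 1 → GInv3 β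
  /-- `Out` has odd order -/
  sz : ∀ {S : Type} [Group S], Lie.IsoSuzuki S → GE S
  ree : ∀ {S : Type} [Group S], Lie.Iso2F4 S → GE S

end Cfsg.Agent.H42.K547.Even
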