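import Cfsg.Agent.H42.K547.RuC
import Cfsg.Agent.OddHalf.D4.Spor.RuIso
import Cfsg.Agent.KFacts.Ru.Core

/-!
# S4547, row Ru

`D3 Ru` and no outer automorphisms; `Good5 Ru` is the row of the team K4.
-/

set_option autoImplicit false

namespace Cfsg.Agent.H42.K547.Ru

open Cfsg.Agent.H821.K547 Cfsg.Agent.H601.K4

universe u

variable {S : Type u} [Group S]

/-- **the Sylow 2-subgroups of the Rudvalis group need three generators** -/
theorem d3 (h : Cfsg.Spor.IsoRu S) : D3 S := by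
  have : Finite S := Cfsg.Agent.OddHalf.D4.Spor.RuIso.finite h
  obtain ⟨C, -⟩ := Cfsg.Agent.KFacts.Ru.exists_core h
  exact d3_of_core C

/-- **all automorphisms are inner** -/
theorem inn (h : Cfsg.Spor.IsoRu S) (τ : MulAut S) : IsInn τ := by
  have : Finite S := Cfsg.Agent.OddHalf.D4.Spor.RuIso.finite h
  obtain ⟨k, rfl⟩ := Cfsg.Agent.OddHalf.D4.Spor.RuIso.inn h τ
  exact ⟨k, fun x => MulAut.conj_apply k x⟩

/-- **row Ru**, from five good characters -/
theorem row_of (h : Cfsg.Spor.IsoRu S) (h5 : Good5 S) : Row S where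
  base := Or.inl ⟨h5, d3 h⟩
  ext τ _ hτ := absurd (inn h τ) hτ

end Cfsg.Agent.H42.K547.Ru
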