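import Cfsg.Agent.H42.K547.RuB

/-!
# The Sylow 2-subgroups of the Rudvalis group need three generators: the transfer (S4547, row Ru)
-/

set_option autoImplicit false

namespace Cfsg.Agent.H42.K547.Ru

open Cfsg.Agent.RuB Cfsg.Agent.RuB.Core Cfsg.Agent.Ru127.Inst Cfsg.Agent.RuB.GLThree Cfsg.Agent.RuB.NormQ
open Cfsg.Agent.RuB.NormZ Subgroup
open Cfsg.Agent.Ru127.Form (nor mem_nor)
open Cfsg.Agent.H821.K547

variable {G : Type*} [Group G] {C : Core G}

theorem cod_id : cod (id : K8 → K8) = 273 := by decide +kernel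

theorem add_id : NormQ.Add (id : K8 → K8) := fun _ _ => rfl

/-- an element of `P` fixing `v (1, 1)` modulo `Z` is in `Q` -/
theorem mem_QQ_of_act (K : Coord C) (hν : K.ν = ⟨5⟩) (hμ : K.μ = ⟨7⟩)
    (hC : ∀ g, (∀ b, g * C.z b = C.z b * g) → g ∈ C.QQ) {g : G} (hg : g ∈ PP C) (h : act K g w3 = w3) :
    g ∈ C.QQ := by
  obtain ⟨r, hr, hD⟩ := hg
  have hm : ∀ c d, mN 3 (r c).val.val (r d).val.val = mN 3 c.val.val d.val.val := by
    intro c d
    have h1 := mW_act K hν hμ hC hr w3 c d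
    rw [h, mW_w3, mW_w3] at h1
    exact h1
  have h1 := chkD
  rw [List.all_eq_true] at h1
  have h2 := h1 _ (cod_mem hr hD)
  have e2 : ap (cod r) 2 = (r ⟨2⟩).val.val := (ap_cod hr.add ⟨2⟩).symm
  have e5 : ap (cod r) 5 = (r ⟨5⟩).val.val := (ap_cod hr.add ⟨5⟩).symm
  have e3 : ap (cod r) 3 = (r ⟨3⟩).val.val := (ap_cod hr.add ⟨3⟩).symm
  have m1 : mN 3 (ap (cod r) 2) (ap (cod r) 5) = 6 := by
    rw [e2, e5, hm]
    exact mN_three.2.2.1
  have m2 : mN 3 (ap (cod r) 5) (ap (cod r) 3) = 6 := by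
    rw [e5, e3, hm]
    exact mN_three.2.2.2
  rw [m1, m2] at h2
  have h3 : cod r = 273 := by simpa using h2
  have h4 : r = id := cod_inj hr.add add_id (by rw [h3, cod_id])
  rw [h4] at hr
  exact hC g (ind_one_iff.1 hr)

/-- conjugates of `v (1, 1)` under `P` -/
theorem mem_S_of_mem (K : Coord C) (hν : K.ν = ⟨5⟩) (hμ : K.μ = ⟨7⟩)
    (hC : ∀ g, (∀ b, g * C.z b = C.z b * g) → g ∈ C.QQ) {g : G} (hg : g ∈ PP C) :
    act K g w3 ∈ (L8.map decode).toFinset := by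
  obtain ⟨r, hr, hD⟩ := hg
  have h1 : mW w3 1 ⟨6⟩ = 6 := by
    rw [mW_w3, val_one]
    exact mN_three.1
  have h2 : mW w3 1 ⟨7⟩ = 6 := by
    rw [mW_w3, val_one]
    exact mN_three.2.1
  have e1 := mW_act K hν hμ hC hr w3 1 ⟨6⟩
  have e2 := mW_act K hν hμ hC hr w3 1 ⟨7⟩
  rw [hD.1] at e1 e2
  rw [List.mem_toFinset]
  apply mem_S
  · rw [q_act K hν hμ hC hr, q_w3, hr.add.zero]
  · rcases hD.seven hr.add with h | h
    · rw [h.1, h1] at e1
      exact e1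
    · rw [h.2, h2] at e2
      exact e2
  · rcases hD.seven hr.add with h | h
    · rw [h.2, h2] at e2
      exact e2
    · rw [h.1, h1] at e1
      exact e1

section

variable (K : Coord C)

/-- the homomorphism of `Q` -/
noncomputable def phi (P : Subgroup G) : (C.QQ.subgroupOf P) →* Multiplicative (ZMod 2) where
  toFun x := Multiplicative.ofAdd (K.π ((x : P) : G)).1.1
  map_one' := by
    show Multiplicative.ofAdd (K.π (1 : G)).1.1 = 1
    rw [K.one]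
    rfl
  map_mul' x y := by
    show Multiplicative.ofAdd (K.π (((x : P) : G) * ((y : P) : G))).1.1 = _
    rw [K.mul _ (mem_subgroupOf.1 x.2) _ (mem_subgroupOf.1 y.2)]
    rfl

theorem phi_apply (P : Subgroup G) (x : C.QQ.subgroupOf P) :
    phi K P x = Multiplicative.ofAdd (K.π ((x : P) : G)).1.1 := rfl

end

theorem v_mem_QQ (a : A4) : C.v a ∈ C.QQ := TT_le (v_mem_TT a)

theorem exists_mu [Finite G] (K : Coord C) (hν : K.ν = ⟨5⟩) (hμ : K.μ = ⟨7⟩)
    (hC : ∀ g, (∀ b, g * C.z b = C.z b * g) → g ∈ C.QQ) (hcard : Nat.card (PP C) = 2 ^ 14) :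
    ∃ μ : PP C →* Multiplicative (ZMod 2), μ ⟨C.v (1, 1), QQ_le (v_mem_QQ _)⟩ = Multiplicative.ofAdd 1 := by
  classical
  have hN : (C.QQ.subgroupOf (PP C)).Normal := by
    refine ⟨fun n hn g => ?_⟩
    obtain ⟨r, hr, -⟩ := g.2
    rw [mem_subgroupOf] at hn ⊢
    exact (nor_QQ hC hr _).1 hn
  have hQ : Nat.card (C.QQ.subgroupOf (PP C)) = 2 ^ 11 := by
    rw [Nat.card_congr (subgroupOfEquivOfLe QQ_le).toEquiv, card_QQ K]
  have hidx : (C.QQ.subgroupOf (PP C)).index = 8 := by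
    have h1 := (C.QQ.subgroupOf (PP C)).card_mul_index
    rw [hQ, hcard] at h1
    omega
  refine ⟨MonoidHom.transfer (phi K (PP C)), ?_⟩
  let _ := (C.QQ.subgroupOf (PP C)).fintypeQuotientOfFiniteIndex
  have hv : (⟨C.v (1, 1), QQ_le (v_mem_QQ _)⟩ : PP C) ∈ C.QQ.subgroupOf (PP C) := mem_subgroupOf.2 (v_mem_QQ _)
  rw [Cfsg.Agent.CharactersDeep.LinearExt.transfer_apply_of_mem_normal (C.QQ.subgroupOf (PP C)) (C.QQ.subgroupOf (PP C))
    le_rfl (phi K (PP C)) _ hv default]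
  set t : PP C ⧸ C.QQ.subgroupOf (PP C) → PP C := fun q =>
    (((default : (C.QQ.subgroupOf (PP C)).LeftTransversal).2.leftQuotientEquiv q : _) : PP C) with ht
  have htq : ∀ q, (t q : PP C ⧸ C.QQ.subgroupOf (PP C)) = q := fun q =>
    IsComplement.quotientGroupMk_leftQuotientEquiv (default : (C.QQ.subgroupOf (PP C)).LeftTransversal).2 q
  have hπ3 : K.π (C.v (1, 1)) = w3 := K.v _
  let w : PP C ⧸ C.QQ.subgroupOf (PP C) → W8 := fun q => K.π ((t q : G)⁻¹ * C.v (1, 1) * (t q : G))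
  have hw : ∀ q, w q = act K (t q : G)⁻¹ w3 := by
    intro q
    obtain ⟨r, hr, -⟩ := (inv_mem (t q).2 : (t q : G)⁻¹ ∈ PP C)
    have h1 := act_eq K hC hr (v_mem_QQ (C := C) (1, 1))
    rw [inv_inv, hπ3] at h1
    exact h1
  have hinj : Function.Injective w := by
    intro q q' hqq
    rw [hw, hw] at hqq
    obtain ⟨r, hr, -⟩ := (inv_mem (t q).2 : (t q : G)⁻¹ ∈ PP C)
    obtain ⟨r', hr', -⟩ := (inv_mem (t q').2 : (t q' : G)⁻¹ ∈ PP C)
    obtain ⟨s, hs, -⟩ := (t q).2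
    have h1 := congrArg (act K (t q : G)) hqq
    rw [← act_mul K hC hs hr, ← act_mul K hC hs hr', mul_inv_cancel, act_one] at h1
    have h2 := mem_QQ_of_act K hν hμ hC (mul_mem (t q).2 (inv_mem (t q').2)) h1.symm
    rw [← htq q, ← htq q', eq_comm, QuotientGroup.eq, mem_subgroupOf]
    obtain ⟨s', hs', -⟩ := (inv_mem (t q').2 : (t q' : G)⁻¹ ∈ PP C)
    have h3 := (nor_QQ hC hs' _).1 h2
    have e : (t q' : G)⁻¹ * ((t q : G) * (t q' : G)⁻¹) * (t q' : G)⁻¹⁻¹ = (((t q')⁻¹ * t q : PP C) : G) := by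
      show _ = (t q' : G)⁻¹ * (t q : G)
      group
    rwa [e] at h3
  have himg : Finset.univ.image w = (L8.map decode).toFinset := by
    apply Finset.eq_of_subset_of_card_le
    · intro x hx
      obtain ⟨q, -, rfl⟩ := Finset.mem_image.1 hx
      rw [hw]
      exact mem_S_of_mem K hν hμ hC (inv_mem (t q).2)
    · rw [card_S, Finset.card_image_of_injective _ hinj, Finset.card_univ, ← Nat.card_eq_fintype_card,
        ← Subgroup.index_eq_card, hidx]
  have hsum : ∑ q, (w q).1.1 = 1 := by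
    rw [← sum_S, ← himg, Finset.sum_image (fun x _ y _ h => hinj h)]
  have hprod : ∏ q, Multiplicative.ofAdd ((w q).1.1) = Multiplicative.ofAdd (∑ q, (w q).1.1) :=
    (ofAdd_sum Finset.univ fun q => (w q).1.1).symm
  rw [hsum] at hprod
  rw [← hprod]
  exact Finset.prod_congr rfl fun q _ => rfl

/-- **three homomorphisms** -/
theorem rk_PP [Finite G] (K : Coord C) (hν : K.ν = ⟨5⟩) (hμ : K.μ = ⟨7⟩)
    (hC : ∀ g, (∀ b, g * C.z b = C.z b * g) → g ∈ C.QQ) {g0 : G} (hg0 : g0 ∈ nor (Zs C))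
    (ht : ∃ x ∈ C.TT, g0 * x * g0⁻¹ ∉ C.TT) : Rk 3 (PP C) := by
  classical
  have hμ0 : K.μ ≠ 0 := by rw [hμ]; decide +kernel
  obtain ⟨μ, hμ1⟩ := exists_mu K hν hμ hC (card_PP K hμ0 hC hg0 ht)
  choose ρ hρ using fun g : PP C => g.2
  have hmul : ∀ g h : PP C, cod (ρ (g * h)) = cp (cod (ρ g)) (cod (ρ h)) := by
    intro g h
    have h1 : Ind C ((g : G) * (h : G)) (ρ g ∘ ρ h) := (hρ g).1.comp (hρ h).1
    have h2 : ρ (g * h) = ρ g ∘ ρ h := (hρ (g * h)).1.unique h1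
    rw [h2, cod_comp (hρ g).1.add]
  have hDL : ∀ g, cod (ρ g) ∈ DL := fun g => cod_mem (hρ g).1 (hρ g).2
  let F0 : PP C → Fin 3 → ZMod 2 := fun g => ![fa (cod (ρ g)), fb (cod (ρ g)), (μ g).toAdd]
  have hF0 : ∀ g h, F0 (g * h) = F0 g + F0 h := by
    intro g h
    have h1 := fab_mul _ (hDL g) _ (hDL h)
    show ![fa (cod (ρ (g * h))), fb (cod (ρ (g * h))), (μ (g * h)).toAdd] = _
    rw [hmul, h1.1, h1.2, map_mul, toAdd_mul]
    simp [F0]
  let F : PP C →* Multiplicative (Fin 3 → ZMod 2) := MonoidHom.mk' (fun g => Multiplicative.ofAdd (F0 g)) (by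
    intro g h
    rw [hF0, ofAdd_add])
  refine ⟨F, fun y => ?_⟩
  obtain ⟨p, hp, hpa, hpb⟩ := fab_surj (y.toAdd 0) (y.toAdd 1)
  have h1 := DL_good
  rw [List.all_eq_true] at h1
  have h2 := h1 _ hp
  simp only [Bool.and_eq_true, Bool.or_eq_true, beq_iff_eq, decide_eq_true_eq] at h2
  obtain ⟨g, r, hr, hrp⟩ := exists_code K hμ0 hC hg0 ht p h2.1.1.2 h2.1.1.1
  have hg : g ∈ PP C := ⟨r, hr, inD_of_cod hr.add (by rw [hrp]; exact hp)⟩
  have hcg : cod (ρ ⟨g, hg⟩) = p := by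
    rw [← hrp, (hρ ⟨g, hg⟩).1.unique hr]
  let v3 : PP C := ⟨C.v (1, 1), QQ_le (v_mem_QQ _)⟩
  have hv3 : cod (ρ v3) = 273 := by
    have h3 : Ind C (C.v (1, 1)) id := ind_one_iff.2 (fun b => zcomm (v_mem_QQ _) b)
    rw [(hρ v3).1.unique h3, cod_id]
  have f273 : fa 273 = 0 ∧ fb 273 = 0 := by decide +kernel
  have key : ∀ a b : ZMod 2, a = b ∨ 1 + a = b := by decide
  rcases key (μ ⟨g, hg⟩).toAdd (y.toAdd 2) with h3 | h3
  · refine ⟨⟨g, hg⟩, ?_⟩
    show Multiplicative.ofAdd (F0 ⟨g, hg⟩) = y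
    apply Multiplicative.toAdd.injective
    funext i
    fin_cases i
    · show fa (cod (ρ ⟨g, hg⟩)) = _
      rw [hcg, hpa]; rfl
    · show fb (cod (ρ ⟨g, hg⟩)) = _
      rw [hcg, hpb]; rfl
    · exact h3
  · refine ⟨v3 * ⟨g, hg⟩, ?_⟩
    show Multiplicative.ofAdd (F0 (v3 * ⟨g, hg⟩)) = y
    rw [hF0]
    apply Multiplicative.toAdd.injective
    funext i
    fin_cases i
    · show fa (cod (ρ v3)) + fa (cod (ρ ⟨g, hg⟩)) = _
      rw [hv3, f273.1, zero_add, hcg, hpa]; rfl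
    · show fb (cod (ρ v3)) + fb (cod (ρ ⟨g, hg⟩)) = _
      rw [hv3, f273.2, zero_add, hcg, hpb]; rfl
    · show (μ v3).toAdd + (μ ⟨g, hg⟩).toAdd = _
      have h4 : (μ v3).toAdd = 1 := by rw [hμ1]; rfl
      rw [h4]
      exact h3

/-- **the Sylow 2-subgroups of a group with a core need three generators** -/
theorem d3_of_core [Finite G] (C : Core G) : D3 G := by
  have : Fact (Nat.Prime 2) := ⟨Nat.prime_two⟩
  obtain ⟨K, hν, hμ, g0, hg0, ht⟩ := QSyl.exists_coord_norm C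
  have hC := Local.cent_le K hμ
  have hg0' := Local.mem_nor_of_norm hg0
  obtain ⟨f, hf⟩ := rk_PP K hν hμ hC hg0' ht
  have hcard := card_PP K (by rw [hμ]; decide +kernel) hC hg0' ht
  have hp : IsPGroup 2 (PP C) := IsPGroup.of_card hcard
  obtain ⟨P, hP⟩ := hp.exists_le_sylow
  have hPc : Nat.card P ≤ 2 ^ 14 := by
    obtain ⟨n, hn⟩ := IsPGroup.iff_card.1 P.2
    have h1 : Nat.card P ∣ Nat.card G := card_subgroup_dvd_card _
    rw [hn] at h1 ⊢
    by_contra h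
    push Not at h
    have h2 : 14 < n := (Nat.pow_lt_pow_iff_right (by norm_num)).1 h
    exact Cfsg.Agent.KFacts.Ru.InvC.not_dvd C ((pow_dvd_pow 2 (by omega : 15 ≤ n)).trans h1)
  have hPe : PP C = P := eq_of_le_of_card_ge hP (by rw [hcard]; exact hPc)
  intro Q
  let e1 : (Q : Subgroup G) ≃* (P : Subgroup G) := Sylow.equiv Q P
  let e2 : (P : Subgroup G) ≃* PP C := MulEquiv.subgroupCongr hPe.symm
  refine ⟨(f.comp e2.toMonoidHom).comp e1.toMonoidHom, ?_⟩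
  exact (hf.comp e2.surjective).comp e1.surjective

end Cfsg.Agent.H42.K547.Ru
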